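import Mathlib
import Cfsg.Agent.H668.Five.Rows
import Cfsg.Agent.S4481
import Cfsg.Agent.S0813
import Cfsg.Agent.H991.QuatQuot
import Cfsg.Agent.H418.PglNse
import Cfsg.Agent.SmallSimple.PSLTwoPart
import Cfsg.Agent.H296.Five.Dih

/-!
# S4874, X1: socle `PSL₂(q)`, `q` odd
-/

set_option autoImplicit false

open Subgroup Cfsg

namespace Cfsg.Agent.H296.Five

open Cfsg.Agent.H668.Five Cfsg.Agent.H634.ZJ Cfsg.Agent.H634.HypS

section crit

variable {G : Type*} [Group G] [Finite G]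

omit [Finite G] in
theorem not_conj_of_normal {S : Subgroup G} [hS : S.Normal] {x w : G} (hx : x ∈ S) (hw : w ∉ S) : ¬ IsConj x w := by
  intro h
  obtain ⟨c, hc⟩ := isConj_iff.1 h
  exact hw (hc ▸ hS.conj_mem x hx c)

omit [Finite G] in
theorem ne_one_of {x : G} {k : ℕ} (h : orderOf x = k) (hk : k ≠ 1) : x ≠ 1 := by
  rintro rfl
  rw [orderOf_one] at h
  exact hk h.symm

omit [Finite G] in
theorem not_conj_of_order {x y : G} {a b : ℕ} (h : orderOf x = a) (h' : orderOf y = b) (hab : a ≠ b) : ¬ IsConj x y := by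
  intro hc
  exact hab (by rw [← h, ← h', orderOf_eq_of_isConj hc])

/-- two classes outside `S` -/
theorem six_of_out {S : Subgroup G} [S.Normal] (hG : ¬ HasNormalPComplement 2 G) {z v w₁ w₂ : G} (hz : z ∈ S)
    (hz2 : orderOf z = 2) (hv : v ∈ S) (hv4 : orderOf v = 4) (hw₁ : w₁ ∉ S) (hw₂ : w₂ ∉ S) (h1 : PEl 2 w₁)
    (h2 : PEl 2 w₂) (hne : ¬ IsConj w₁ w₂) : Six G := by
  intro M hM
  exact six_of_four hM hG (x := z) (y := v) (z := w₁) (w := w₂) ⟨1, by rw [hz2]; rfl⟩ (ne_one_of hz2 (by norm_num))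
    ⟨2, by rw [hv4]; rfl⟩ (ne_one_of hv4 (by norm_num)) h1 (fun h => hw₁ (h ▸ S.one_mem)) h2
    (fun h => hw₂ (h ▸ S.one_mem)) (not_conj_of_order hz2 hv4 (by norm_num)) (not_conj_of_normal hz hw₁)
    (not_conj_of_normal hz hw₂) (not_conj_of_normal hv hw₁) (not_conj_of_normal hv hw₂) hne

/-- an element of order 8 in `S` and one class outside `S` -/
theorem six_of_eight {S : Subgroup G} [S.Normal] (hG : ¬ HasNormalPComplement 2 G) {u w : G} (hu : u ∈ S)
    (hu8 : orderOf u = 8) (hw : w ∉ S) (h1 : PEl 2 w) : Six G := by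
  intro M hM
  have h4 : orderOf (u ^ 2) = 4 := by rw [orderOf_pow, hu8]; rfl
  have h2 : orderOf (u ^ 4) = 2 := by rw [orderOf_pow, hu8]; rfl
  exact six_of_four hM hG (x := u ^ 4) (y := u ^ 2) (z := u) (w := w) ⟨1, by rw [h2]; rfl⟩ (ne_one_of h2 (by norm_num))
    ⟨2, by rw [h4]; rfl⟩ (ne_one_of h4 (by norm_num)) ⟨3, by rw [hu8]; rfl⟩ (ne_one_of hu8 (by norm_num)) h1
    (fun h => hw (h ▸ S.one_mem)) (not_conj_of_order h2 h4 (by norm_num)) (not_conj_of_order h2 hu8 (by norm_num))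
    (not_conj_of_normal (S.pow_mem hu 4) hw) (not_conj_of_order h4 hu8 (by norm_num))
    (not_conj_of_normal (S.pow_mem hu 2) hw) (not_conj_of_normal hu hw)

/-- a dihedral Sylow 2-subgroup of order at least 16 -/
theorem six_of_dihedral (P : Sylow 2 G) {k : ℕ} (hk : 3 ≤ k) (e : (P : Subgroup G) ≃* DihedralGroup (2 ^ k)) :
    Six G := by
  intro M hM
  have h0 : 2 ^ k ≠ 0 := by positivity
  have : NeZero (2 ^ k) := ⟨h0⟩
  have h1 : orderOf ((e.symm (.r 1) : (P : Subgroup G)) : G) = 2 ^ (k + 1 - 1) := by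
    rw [Subgroup.orderOf_coe, MulEquiv.orderOf_eq, DihedralGroup.orderOf_r_one, Nat.add_sub_cancel]
  have h2 := (S4481.result M hM (k + 1) (by omega) P ⟨e⟩ _ (e.symm (.r 1)).2 h1
    (Complex.exp (2 * Real.pi * Complex.I / ((2 ^ (k + 1 - 1) : ℕ) : ℂ)))
    (Complex.isPrimitiveRoot_exp _ (by positivity))).1
  rw [h2]
  have h3 : 2 ^ 2 ≤ 2 ^ (k + 1 - 2) := Nat.pow_le_pow_right (by norm_num) (by omega)
  omega

end crit

/-- arithmetic: `|S|₂ = 4` is impossible -/
theorem arith {p f N A : ℕ} (hp : Odd p) (hN : 2 * N = p ^ f * ((p ^ f) ^ 2 - 1))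
    (hA : A = f * (p ^ f * ((p ^ f) ^ 2 - 1))) (h16 : 16 ∣ A) : 8 ∣ N := by
  have hq : Odd (p ^ f) := hp.pow
  have h1 : 16 ∣ (p ^ f) ^ 2 - 1 := by
    rcases Nat.even_or_odd f with he | ho
    · obtain ⟨c, hc⟩ := he
      have h2 : p ^ f = (p ^ c) ^ 2 := by rw [hc, pow_add, pow_two]
      obtain ⟨t, ht⟩ := (hp.pow : Odd (p ^ c))
      rw [h2, ht]
      have h3 : ((2 * t + 1) ^ 2) ^ 2 = 16 * (t * (t + 1)) * (t * (t + 1)) + 8 * (t * (t + 1)) + 1 := by ring
      obtain ⟨s, hs⟩ := even_iff_two_dvd.1 (Nat.even_mul_succ_self t)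
      rw [h3, hs]
      refine ⟨(2 * s) * (2 * s) + s, ?_⟩
      have : 16 * (2 * s) * (2 * s) + 8 * (2 * s) + 1 = 16 * ((2 * s) * (2 * s) + s) + 1 := by ring
      rw [this, Nat.add_sub_cancel]
    · rw [hA] at h16
      have hc1 : Nat.Coprime 16 f := Nat.Coprime.pow_left 4 (Nat.coprime_two_left.2 ho)
      have hc2 : Nat.Coprime 16 (p ^ f) := Nat.Coprime.pow_left 4 (Nat.coprime_two_left.2 hq)
      exact hc2.dvd_of_dvd_mul_left (hc1.dvd_of_dvd_mul_left h16)
  obtain ⟨c, hc⟩ := h1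
  rw [hc] at hN
  exact ⟨p ^ f * c, by linarith⟩

/-- **X1** -/
theorem special_psl_two_odd {G : Type*} [Group G] [Finite G] (S : Subgroup G) [S.Normal]
    (hC : Subgroup.centralizer (S : Set G) = ⊥) (F : Type) [Field F] [Fintype F]
    (hF : Odd (Fintype.card F)) (hF5 : 5 ≤ Fintype.card F)
    (e : Nonempty (↥S ≃* Matrix.ProjectiveSpecialLinearGroup (Fin 2) F))
    (h16 : 16 ∣ Nat.card G) (h8 : ¬ 8 ∣ S.index) : Six G := by
  obtain ⟨e⟩ := e
  have hp2 : Fact (Nat.Prime 2) := ⟨Nat.prime_two⟩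
  have hcard := SmallSimple.PSLTwoPart.card_psl_two_odd hF
  rw [← Nat.card_congr e.toEquiv] at hcard
  have hfin : Finite (Matrix.ProjectiveSpecialLinearGroup (Fin 2) F) := Finite.of_equiv _ e.toEquiv
  have hsimp : IsSimpleGroup (Matrix.ProjectiveSpecialLinearGroup (Fin 2) F) :=
    Matrix.ProjectiveSpecialLinearGroup.rank_two_simple (by rw [Nat.card_eq_fintype_card]; omega)
  have hS : IsSimpleGroup S := MulEquiv.isSimpleGroup e
  -- a Sylow 2-subgroup of `S`
  obtain ⟨R⟩ : Nonempty (Sylow 2 (Matrix.ProjectiveSpecialLinearGroup (Fin 2) F)) := inferInstance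
  obtain ⟨k, hk1, ⟨eR⟩⟩ := Cfsg.Agent.H991.psl2_dihedral hF R
  let Q : Sylow 2 S := R.mapSurjective (f := e.symm.toMonoidHom) e.symm.surjective
  have hQ : (Q : Subgroup S) = (R : Subgroup _).map e.symm.toMonoidHom := Sylow.coe_mapSurjective _ _
  have eQ : (Q : Subgroup S) ≃* DihedralGroup (2 ^ k) :=
    (MulEquiv.subgroupCongr hQ).trans ((e.symm.subgroupMap (R : Subgroup _)).symm.trans eR)
  -- a Sylow 2-subgroup of `G` containing it
  obtain ⟨P, hP⟩ := (Q.isPGroup'.map S.subtype).exists_le_sylow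
  have hD : (P : Subgroup G) ⊓ S = (Q : Subgroup S).map S.subtype := by
    have h1 : (Q : Subgroup S) ≤ (P : Subgroup G).subgroupOf S := by
      rw [Subgroup.subgroupOf, ← Subgroup.map_le_iff_le_comap]
      exact hP
    have h2 : IsPGroup 2 ↥((P : Subgroup G).subgroupOf S) :=
      P.isPGroup'.comap_of_injective S.subtype S.subtype_injective
    have h3 := Q.is_maximal' h2 h1
    rw [← Subgroup.subgroupOf_map_subtype, h3]
  have eD : ((P : Subgroup G) ⊓ S : Subgroup G) ≃* DihedralGroup (2 ^ k) :=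
    (MulEquiv.subgroupCongr hD).trans
      (((Q : Subgroup S).equivMapOfInjective S.subtype S.subtype_injective).symm.trans eQ)
  have hcD : Nat.card ((P : Subgroup G) ⊓ S : Subgroup G) = 2 * 2 ^ k := by
    rw [Nat.card_congr eD.toEquiv, DihedralGroup.nat_card]
  have hcQ : Nat.card (Q : Subgroup S) = 2 * 2 ^ k := by
    rw [Nat.card_congr eQ.toEquiv, DihedralGroup.nat_card]
  -- `G` is not 2-nilpotent
  have hnc : ¬ HasNormalPComplement 2 G := by
    refine not_compl_of_subgroup (K := S) ?_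
    rintro ⟨T, N, hN, hc⟩
    have hmul := hc.card_mul_card
    rcases hN.eq_bot_or_eq_top with rfl | rfl
    · rw [Subgroup.card_bot, one_mul] at hmul
      obtain ⟨a, ha⟩ := (IsPGroup.iff_card.1 T.isPGroup')
      rw [ha] at hmul
      rw [← hmul] at hcard
      have hq : Fintype.card F ∣ 2 ^ (a + 1) := ⟨_, by rw [pow_succ, mul_comm]; exact hcard⟩
      have hcop : Nat.Coprime (Fintype.card F) (2 ^ (a + 1)) := Nat.Coprime.pow_right _ (Nat.coprime_two_right.2 hF)
      have := Nat.Coprime.eq_one_of_dvd hcop hq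
      omega
    · rw [Subgroup.card_top] at hmul
      have h1 : Nat.card (T : Subgroup S) = 1 := by
        have h2 : Nat.card S * Nat.card (T : Subgroup S) = Nat.card S * 1 := by rw [mul_one]; exact hmul
        exact Nat.eq_of_mul_eq_mul_left Nat.card_pos h2
      have h3 : Nat.card (Q : Subgroup S) = Nat.card (T : Subgroup S) := by
        rw [Q.card_eq_multiplicity, T.card_eq_multiplicity]
      rw [h1, hcQ] at h3
      have : 0 < 2 ^ k := by positivity
      omega
  -- `k ≠ 1`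
  have hk : 2 ≤ k := by
    by_contra hk
    have hk' : k = 1 := by omega
    subst hk'
    obtain ⟨p, hchar⟩ := CharP.exists F
    have hpp : Fact p.Prime := ⟨CharP.char_is_prime F p⟩
    obtain ⟨f, hfp, hfc⟩ := FiniteField.card F p
    have hpo : Odd p := by
      rcases hpp.out.eq_two_or_odd' with rfl | h
      · exfalso
        rw [hfc] at hF
        exact (Nat.not_even_iff_odd.2 hF) ((Nat.even_pow.2 ⟨even_two, f.ne_zero⟩))
      · exact h
    have h1 : Nat.card (MulAut S) = (f : ℕ) * Nat.card (Matrix.ProjGenLinGroup (Fin 2) F) := by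
      rw [Nat.card_congr (MulAut.congr e).toEquiv, S0813.result p f (Nat.one_le_iff_ne_zero.2 f.ne_zero) hfc 2 le_rfl (fun _ => by omega)]
      simp
    have h2 : Nat.card G ∣ Nat.card (MulAut S) := by
      have hinj : Function.Injective (MulAut.conjNormal : G →* MulAut S) := by
        rw [← MonoidHom.ker_eq_bot_iff, eq_bot_iff, ← hC]
        intro g hg
        rw [Subgroup.mem_centralizer_iff]
        intro s hs
        have h3 := congrArg (fun (a : MulAut S) => ((a ⟨s, hs⟩ : S) : G)) (MonoidHom.mem_ker.1 hg)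
        simp only [MulAut.conjNormal_apply, MulAut.one_apply] at h3
        exact (mul_inv_eq_iff_eq_mul.1 h3).symm
      have hfA : Finite (MulAut S) := Finite.of_injective (fun f : MulAut S => (f : S → S)) DFunLike.coe_injective
      exact Subgroup.card_dvd_of_injective _ hinj
    rw [H418.PglNse.card_pgl, hfc] at h1
    rw [hfc] at hcard
    have h3 : 8 ∣ Nat.card S := arith hpo hcard h1 (h16.trans h2)
    have h4 : 2 ^ 3 ∣ Nat.card (Q : Subgroup S) := by
      rw [Q.card_eq_multiplicity]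
      exact pow_dvd_pow 2 ((hp2.out.pow_dvd_iff_le_factorization Nat.card_pos.ne').1 h3)
    rw [hcQ] at h4
    exact absurd h4 (by norm_num)
  by_cases h2 : 2 ∣ S.index
  · -- there are 2-elements outside `S`
    have hPS : ¬ (P : Subgroup G) ≤ S := fun h =>
      P.not_dvd_index (h2.trans (Subgroup.index_dvd_of_le h))
    obtain ⟨w₀, hw₀, hw₀S⟩ := SetLike.not_le_iff_exists.1 hPS
    have hex : ∃ j : ℕ, w₀ ^ 2 ^ j ∈ S := by
      obtain ⟨m, hm⟩ := (IsPGroup.iff_orderOf.1 P.isPGroup') ⟨w₀, hw₀⟩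
      rw [Subgroup.orderOf_mk] at hm
      exact ⟨m, by rw [← hm, pow_orderOf_eq_one]; exact S.one_mem⟩
    obtain ⟨w, hwP, hwS, hw2⟩ : ∃ w ∈ P, w ∉ S ∧ w * w ∈ S := by
      classical
      have hj := Nat.find_spec hex
      have hj0 : Nat.find hex ≠ 0 := by
        intro h0
        rw [h0, pow_zero, pow_one] at hj
        exact hw₀S hj
      obtain ⟨j, hj'⟩ := Nat.exists_eq_succ_of_ne_zero hj0
      refine ⟨w₀ ^ 2 ^ j, P.pow_mem hw₀ _, Nat.find_min hex (by omega), ?_⟩
      rw [hj', Nat.succ_eq_add_one, pow_succ, pow_mul] at hj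
      rwa [← pow_two]
    have hPEl : ∀ x ∈ P, PEl 2 x := by
      intro x hx
      obtain ⟨m, hm⟩ := (IsPGroup.iff_orderOf.1 P.isPGroup') ⟨x, hx⟩
      rw [Subgroup.orderOf_mk] at hm
      exact ⟨m, hm⟩
    have hr : orderOf ((eD.symm (.r 1) : ((P : Subgroup G) ⊓ S : Subgroup G)) : G) = 2 ^ k := by
      rw [Subgroup.orderOf_coe, MulEquiv.orderOf_eq, DihedralGroup.orderOf_r_one]
    have hrS : ((eD.symm (.r 1) : ((P : Subgroup G) ⊓ S : Subgroup G)) : G) ∈ S := (eD.symm (.r 1)).2.2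
    generalize ((eD.symm (.r 1) : ((P : Subgroup G) ⊓ S : Subgroup G)) : G) = r at hr hrS
    rcases (by omega : k = 2 ∨ 3 ≤ k) with rfl | hk3
    · have hwD : ∀ x ∈ ((P : Subgroup G) ⊓ S : Subgroup G), w * x * w⁻¹ ∈ ((P : Subgroup G) ⊓ S : Subgroup G) :=
        fun x hx => ⟨P.mul_mem (P.mul_mem hwP hx.1) (P.inv_mem hwP), ‹S.Normal›.conj_mem x hx.2 w⟩
      obtain ⟨e₁, he₁, e₂, he₂, hpair⟩ := exists_pair (D := (P : Subgroup G) ⊓ S) eD hwD ⟨P.mul_mem hwP hwP, hw2⟩
      have hout : ∀ x ∈ ((P : Subgroup G) ⊓ S : Subgroup G), w * x ∉ S := fun x hx h =>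
        hwS ((S.mul_mem_cancel_right hx.2).1 h)
      have h4 : orderOf r = 4 := hr
      have h2' : orderOf (r ^ 2) = 2 := by rw [orderOf_pow, h4]; rfl
      refine six_of_out (S := S) hnc (S.pow_mem hrS 2) h2' hrS h4 (hout e₁ he₁) (hout e₂ he₂)
        (hPEl _ (P.mul_mem hwP he₁.1)) (hPEl _ (P.mul_mem hwP he₂.1)) ?_
      intro hc
      obtain ⟨c, hc⟩ := isConj_iff.1 hc
      have hpow : ∀ n : ℕ, (w * e₁) ^ n = 1 → (w * e₂) ^ n = 1 := by
        intro n hn
        rw [← hc, conj_pow, hn, mul_one, mul_inv_cancel]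
      rcases hpair with ⟨h5, h6⟩ | ⟨h5, h6⟩
      · exact h6 (hpow 2 h5)
      · exact h6 (hpow 4 h5)
    · have h8' : orderOf (r ^ 2 ^ (k - 3)) = 8 := by
        obtain ⟨j, rfl⟩ := Nat.exists_eq_add_of_le hk3
        rw [orderOf_pow' _ (by positivity), hr, Nat.add_sub_cancel_left, pow_add,
          Nat.gcd_eq_right (Dvd.intro_left _ rfl), Nat.mul_div_cancel _ (by positivity)]
        rfl
      exact six_of_eight (S := S) hnc (S.pow_mem hrS _) h8' hwS (hPEl _ hwP)
  · -- `P ≤ S`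
    have hc1 : Nat.card (P : Subgroup G) = Nat.card (Q : Subgroup S) := by
      rw [P.card_eq_multiplicity, Q.card_eq_multiplicity, ← Subgroup.card_mul_index S,
        Nat.factorization_mul Nat.card_pos.ne' (Nat.pos_of_ne_zero (by
          exact Subgroup.index_ne_zero_of_finite)).ne']
      simp only [Finsupp.coe_add, Pi.add_apply]
      rw [Nat.factorization_eq_zero_of_not_dvd h2, add_zero]
    have hPeq : ((P : Subgroup G) ⊓ S : Subgroup G) = P := by
      refine Subgroup.eq_of_le_of_card_ge inf_le_left ?_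
      rw [hcD, hc1, hcQ]
    have eP : (P : Subgroup G) ≃* DihedralGroup (2 ^ k) := (MulEquiv.subgroupCongr hPeq.symm).trans eD
    have h3 : 2 ^ 4 ∣ Nat.card (P : Subgroup G) := by
      rw [P.card_eq_multiplicity]
      exact pow_dvd_pow 2 ((hp2.out.pow_dvd_iff_le_factorization Nat.card_pos.ne').1 h16)
    have hk3 : 3 ≤ k := by
      rw [hc1, hcQ, ← pow_succ'] at h3
      have := (Nat.pow_dvd_pow_iff_le_right (by norm_num : 1 < 2)).1 h3
      omega
    exact six_of_dihedral P hk3 eP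

end Cfsg.Agent.H296.Five
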